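import Mathlib

/-!
# S2451, the unitary groups (helper519): the third coefficient of the characteristic polynomial after a rank one change
-/

set_option autoImplicit false
set_option linter.unusedSectionVars false

namespace Cfsg.Agent.H519.AH

open Polynomial Matrix

variable {F : Type*} [Field F] {n : ℕ}

/-- the third coefficient of the reverse characteristic polynomial -/
noncomputable def e3 (M : Matrix (Fin n) (Fin n) F) : F := M.charpolyRev.coeff 3

theorem charpolyRev_conj {P Q : Matrix (Fin n) (Fin n) F} (h : Q * P = 1) (M : Matrix (Fin n) (Fin n) F) :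
    (P * M * Q).charpolyRev = M.charpolyRev := by
  rw [← Matrix.reverse_charpoly, ← Matrix.reverse_charpoly, Matrix.charpoly_mul_comm, ← mul_assoc, h, one_mul]

theorem e3_conj {P Q : Matrix (Fin n) (Fin n) F} (h : Q * P = 1) (M : Matrix (Fin n) (Fin n) F) :
    e3 (P * M * Q) = e3 M := by
  rw [e3, e3, charpolyRev_conj h]

theorem e3_smul (c : F) (M : Matrix (Fin n) (Fin n) F) : e3 (c • M) = c ^ 3 * e3 M := by
  have h1 : (c • M).charpolyRev = M.charpolyRev.comp (C c * X) := by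
    rw [Matrix.charpolyRev, Matrix.charpolyRev]
    have h2 := RingHom.map_det (Polynomial.compRingHom (C c * X)) (1 - (X : F[X]) • M.map C)
    rw [Polynomial.coe_compRingHom_apply] at h2
    rw [h2]
    congr 1
    ext1 i j
    by_cases hij : i = j
    · subst hij
      simp only [Matrix.sub_apply, Matrix.one_apply_eq, Matrix.smul_apply, Matrix.map_apply, smul_eq_mul,
        RingHom.mapMatrix_apply, Polynomial.coe_compRingHom_apply, Polynomial.sub_comp, Polynomial.one_comp,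
        Polynomial.mul_comp, Polynomial.X_comp, Polynomial.C_comp, map_mul]
      ring
    · simp only [Matrix.sub_apply, Matrix.one_apply_ne hij, Matrix.smul_apply, Matrix.map_apply, smul_eq_mul,
        RingHom.mapMatrix_apply, Polynomial.coe_compRingHom_apply, Polynomial.sub_comp, Polynomial.zero_comp,
        Polynomial.mul_comp, Polynomial.X_comp, Polynomial.C_comp, map_mul]
      ring
  rw [e3, e3, h1, Polynomial.comp_C_mul_X_coeff, mul_comm]

/-- the congruence -/
theorem charpolyRev_rank_one (M : Matrix (Fin n) (Fin n) F) (u v : Fin n → F) :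
    (X : F[X]) ^ 4 ∣ (M + vecMulVec u v).charpolyRev -
      M.charpolyRev * (1 - C (v ⬝ᵥ u) * X - C (v ⬝ᵥ (M *ᵥ u)) * X ^ 2 - C (v ⬝ᵥ (M *ᵥ (M *ᵥ u))) * X ^ 3) := by
  set Mc : Matrix (Fin n) (Fin n) F[X] := M.map C with hMc
  set uc : Fin n → F[X] := fun i => C (u i) with huc
  set vc : Fin n → F[X] := fun i => C (v i) with hvc
  set B : Matrix (Fin n) (Fin n) F[X] := 1 + (X : F[X]) • Mc + (X : F[X]) ^ 2 • (Mc * Mc) + (X : F[X]) ^ 3 •
    (Mc * Mc * Mc) with hB
  have hmap : ∀ w : Fin n → F, Mc *ᵥ (fun i => C (w i)) = fun i => C ((M *ᵥ w) i) := by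
    intro w
    funext i
    simp [hMc, Matrix.mulVec, dotProduct, map_sum]
  have hdot : ∀ w : Fin n → F, vc ⬝ᵥ (fun i => C (w i)) = C (v ⬝ᵥ w) := by
    intro w
    simp [hvc, dotProduct, map_sum]
  set φ := Ideal.Quotient.mk (Ideal.span {(X : F[X]) ^ 4}) with hφ
  have hφX : φ (X ^ 4) = 0 := Ideal.Quotient.eq_zero_iff_mem.2 (Ideal.mem_span_singleton_self _)
  have hdet : ∀ Y Z : Matrix (Fin n) (Fin n) F[X], φ (det (Y - (X : F[X]) ^ 4 • Z)) = φ (det Y) := by
    intro Y Z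
    rw [RingHom.map_det, RingHom.map_det]
    congr 1
    ext1 i j
    simp only [RingHom.mapMatrix_apply, Matrix.map_apply, Matrix.sub_apply, Matrix.smul_apply, smul_eq_mul, map_sub,
      map_mul, hφX, zero_mul, sub_zero]
  have key : ∀ u : Fin n → F, φ ((M + vecMulVec u v).charpolyRev) * φ (det B) =
      φ (1 - C (v ⬝ᵥ u) * X - C (v ⬝ᵥ (M *ᵥ u)) * X ^ 2 - C (v ⬝ᵥ (M *ᵥ (M *ᵥ u))) * X ^ 3) := by
    intro u
    have e1 : (M + vecMulVec u v).map C = Mc + vecMulVec (fun i => C (u i)) vc := by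
      ext1 i j
      simp [hMc, hvc, vecMulVec_apply]
    have e2 : (1 - (X : F[X]) • (Mc + vecMulVec (fun i => C (u i)) vc)) * B =
        (1 - vecMulVec ((X : F[X]) • fun i => C (u i)) (vc ᵥ* B)) - (X : F[X]) ^ 4 • (Mc * Mc * Mc * Mc) := by
      have e3 : vecMulVec ((X : F[X]) • fun i => C (u i)) (vc ᵥ* B) =
          (X : F[X]) • (vecMulVec (fun i => C (u i)) vc * B) := by
        rw [Matrix.smul_vecMulVec, Matrix.vecMulVec_mul]
      rw [e3, smul_add, ← sub_sub, sub_mul, Matrix.smul_mul]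
      have e4 : (1 - (X : F[X]) • Mc) * B = 1 - (X : F[X]) ^ 4 • (Mc * Mc * Mc * Mc) := by
        rw [hB, sub_mul, one_mul, Matrix.smul_mul]
        simp only [mul_add, Matrix.mul_smul, mul_one, smul_add, smul_smul, ← mul_assoc]
        rw [show (X : F[X]) * X = X ^ 2 by ring, show (X : F[X]) * X ^ 2 = X ^ 3 by ring,
          show (X : F[X]) * X ^ 3 = X ^ 4 by ring]
        abel
      rw [e4]
      abel
    rw [← map_mul, Matrix.charpolyRev, e1, ← Matrix.det_mul, e2, hdet]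
    have e5 : (1 - vecMulVec ((X : F[X]) • fun i => C (u i)) (vc ᵥ* B)).det =
        1 - (vc ᵥ* B) ⬝ᵥ ((X : F[X]) • fun i => C (u i)) := by
      rw [sub_eq_add_neg, ← Matrix.neg_vecMulVec, Matrix.vecMulVec_eq Unit,
        Matrix.det_one_add_replicateCol_mul_replicateRow, dotProduct_neg, ← sub_eq_add_neg]
    rw [e5, ← Matrix.dotProduct_mulVec]
    have e6 : vc ⬝ᵥ (B *ᵥ ((X : F[X]) • fun i => C (u i))) = C (v ⬝ᵥ u) * X + C (v ⬝ᵥ (M *ᵥ u)) * X ^ 2 +
        C (v ⬝ᵥ (M *ᵥ (M *ᵥ u))) * X ^ 3 + C (v ⬝ᵥ (M *ᵥ (M *ᵥ (M *ᵥ u)))) * X ^ 4 := by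
      rw [hB, Matrix.mulVec_smul, Matrix.add_mulVec, Matrix.add_mulVec, Matrix.add_mulVec, Matrix.one_mulVec,
        Matrix.smul_mulVec, Matrix.smul_mulVec, Matrix.smul_mulVec, ← Matrix.mulVec_mulVec,
        ← Matrix.mulVec_mulVec, ← Matrix.mulVec_mulVec, hmap, hmap, hmap, dotProduct_smul, dotProduct_add,
        dotProduct_add, dotProduct_add, dotProduct_smul, dotProduct_smul, dotProduct_smul, hdot, hdot, hdot, hdot]
      simp only [smul_eq_mul]
      ring
    rw [e6]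
    simp only [map_sub, map_add, map_mul, map_one]
    rw [hφX]
    ring
  have h1 := key u
  have h2 := key 0
  simp only [Matrix.zero_vecMulVec, add_zero, Matrix.mulVec_zero, dotProduct_zero, map_zero, zero_mul, sub_zero,
    map_one] at h2
  rw [← Ideal.mem_span_singleton, ← Ideal.Quotient.eq_zero_iff_mem, map_sub, map_mul, ← hφ, ← h1]
  linear_combination - φ ((M + vecMulVec u v).charpolyRev) * h2

/-- **The third coefficient after a rank one change.** -/
theorem e3_rank_one (M : Matrix (Fin n) (Fin n) F) (u v : Fin n → F) :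
    e3 (M + vecMulVec u v) = e3 M - (v ⬝ᵥ u) * M.charpolyRev.coeff 2 - (v ⬝ᵥ (M *ᵥ u)) * M.charpolyRev.coeff 1 -
      v ⬝ᵥ (M *ᵥ (M *ᵥ u)) := by
  have h1 := (Polynomial.X_pow_dvd_iff.1 (charpolyRev_rank_one M u v)) 3 (by norm_num)
  have h0 : M.charpolyRev.coeff 0 = 1 := by
    rw [Polynomial.coeff_zero_eq_eval_zero, Matrix.eval_charpolyRev]
  rw [Polynomial.coeff_sub, sub_eq_zero] at h1
  rw [e3, h1, e3]
  have e : M.charpolyRev * (1 - C (v ⬝ᵥ u) * X - C (v ⬝ᵥ (M *ᵥ u)) * X ^ 2 - C (v ⬝ᵥ (M *ᵥ (M *ᵥ u))) * X ^ 3) =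
      M.charpolyRev - C (v ⬝ᵥ u) * (M.charpolyRev * X) - C (v ⬝ᵥ (M *ᵥ u)) * (M.charpolyRev * X ^ 2) -
        C (v ⬝ᵥ (M *ᵥ (M *ᵥ u))) * (M.charpolyRev * X ^ 3) := by ring
  rw [e, Polynomial.coeff_sub, Polynomial.coeff_sub, Polynomial.coeff_sub, Polynomial.coeff_C_mul,
    Polynomial.coeff_C_mul, Polynomial.coeff_C_mul, Polynomial.coeff_mul_X,
    show (3 : ℕ) = 1 + 2 by norm_num, Polynomial.coeff_mul_X_pow, show (1 + 2 : ℕ) = 0 + 3 by norm_num,
    Polynomial.coeff_mul_X_pow, h0, mul_one]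

end Cfsg.Agent.H519.AH
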