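import Mathlib
import Cfsg.Agent.H519.AH.Trace
import Cfsg.Agent.H27.AH.Defs

/-!
# S2451, the unitary groups (helper519): `q ≥ 3`

For `n ≥ 4` and `q ≥ 3` the product of two nontrivial classes of `PSU_n(q)` is never a class.
-/

set_option autoImplicit false
set_option linter.unusedSectionVars false

namespace Cfsg.Agent.H519.AH

open Module Cfsg Cfsg.Agent.LieClassical.HermBasic Cfsg.Agent.LieClassical.HermSiegel
open Cfsg.Agent.H105.SzU Cfsg.Agent.H105.Sz Cfsg.Agent.ClassicalGeometry.HermOrtho Cfsg.Agent.LieClassical.HermGen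
open Cfsg.Agent.ClassicalGeometry.UnitAutBasic Cfsg.Agent.H330.ClassProd Cfsg.Agent.H27.AH
open scoped Matrix

variable {F : Type*} [Field F] [Fintype F] {n q : ℕ}

theorem mat_ext {A B : Matrix (Fin n) (Fin n) F} (h : ∀ x, A *ᵥ x = B *ᵥ x) : A = B :=
  Matrix.ext_of_mulVec_single fun _ => h _

/-- a form preserving element with `h(b v, v) = 0` for all isotropic `v` is a scalar -/
theorem pr_eq_one_of_zero (hF : Fintype.card F = q ^ 2) {b : SU n F q}
    (h : ∀ v : Fin n → F, hermForm n F q v v = 0 → hermForm n F q (act b v) v = 0) : pr n F q b = 1 := by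
  have hf : Sesq q (fun x y : Fin n → F => hermForm n F q (act b x) y) :=
    ⟨fun x x' y => by rw [act_add, herm_add_left], fun x y y' => herm_add_right hF _ _ _,
      fun c x y => by rw [act_smul, herm_smul_left], fun c x y => herm_smul_right _ _ _⟩
  obtain ⟨ρ, hρ⟩ := sesq_scalar_const hF hf (ND_top hF) (κ := 0) (Or.inl rfl) fun v _ _ hv => h v hv
  have h1 : ∀ x : Fin n → F, act b x = ρ • x := by
    intro x
    have h2 : act b x - ρ • x = 0 := by
      refine herm_nondeg hF fun y => ?_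
      rw [herm_sub_left, herm_smul_left, hρ x trivial y trivial, sub_self]
    exact sub_eq_zero.1 h2
  have h3 : pr n F q 1 = pr n F q b := pr_eq_of_scalar (c := ρ) fun x => by rw [h1, act_one]
  rw [← h3, map_one]

/-- **Lifting.** -/
theorem lift_conj (hF : Fintype.card F = q ^ 2) (hn : 3 ≤ n) {z z' : SU n F q}
    (h : IsConj (pr n F q z) (pr n F q z')) :
    ∃ (k : SU n F q) (ζ : F), ζ * ζ ^ q = 1 ∧ ζ ^ n = 1 ∧ mat z' = ζ • mat (k * z * k⁻¹) := by
  obtain ⟨c, hc⟩ := isConj_iff.1 h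
  obtain ⟨k, rfl⟩ := pr_surjective c
  rw [← map_inv, ← map_mul, ← map_mul] at hc
  obtain ⟨ζ, h1, h2⟩ := exists_scalar_of_pr_eq hF hn hc
  have h3 : mat z' = ζ • mat (k * z * k⁻¹) := by
    apply mat_ext
    intro x
    rw [Matrix.smul_mulVec]
    exact h2 x
  refine ⟨k, ζ, h1, ?_, h3⟩
  have h4 := congrArg Matrix.det h3
  rw [Matrix.det_smul, det_mat, det_mat, mul_one, Fintype.card_fin] at h4
  exact h4.symm

theorem trace_conj (k z : SU n F q) : (mat (k * z * k⁻¹)).trace = (mat z).trace := by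
  rw [mat_mul, Matrix.trace_mul_comm, ← mat_mul]
  congr 2
  group

/-- all the products in `SU` -/
theorem lift_all (hF : Fintype.card F = q ^ 2) (hn : 3 ≤ n) {a b c : SU n F q}
    (h : AllConj (pr n F q a) (pr n F q b) (pr n F q c)) (g : SU n F q) :
    ∃ (k : SU n F q) (ζ : F), ζ * ζ ^ q = 1 ∧ ζ ^ n = 1 ∧ mat (a * (g * b * g⁻¹)) = ζ • mat (k * c * k⁻¹) := by
  apply lift_conj hF hn
  have h1 := h 1 (pr n F q g)
  rw [one_mul, inv_one, mul_one] at h1
  rw [map_mul, map_mul, map_mul, map_inv]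
  exact h1

theorem T_eq (a b : SU n F q) : T a b = (mat (a * b)).trace := by rw [T, mat_mul]

theorem nc_of_allConj (hF : Fintype.card F = q ^ 2) (hn : 3 ≤ n) {a b c : SU n F q}
    (h : AllConj (pr n F q a) (pr n F q b) (pr n F q c)) (K : Subgroup (SU n F q)) :
    NC K a b ((mat c).trace * (mat c).trace ^ q) := by
  intro g _
  obtain ⟨k, ζ, h1, -, h2⟩ := lift_all hF hn h g
  rw [T_eq, h2, Matrix.trace_smul, trace_conj, smul_eq_mul, mul_pow]
  linear_combination ((mat c).trace * (mat c).trace ^ q) * h1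

theorem tc_of_allConj (hF : Fintype.card F = q ^ 2) (hn : 3 ≤ n) {a b c : SU n F q}
    (h : AllConj (pr n F q a) (pr n F q b) (pr n F q c)) (K : Subgroup (SU n F q))
    (h1 : ∀ ζ : F, ζ * ζ ^ q = 1 → ζ ^ n = 1 → ζ * (mat c).trace = (mat c).trace) :
    TC K a b (mat c).trace := by
  intro g _
  obtain ⟨k, ζ, h2, h3, h4⟩ := lift_all hF hn h g
  rw [T_eq, h4, Matrix.trace_smul, trace_conj, smul_eq_mul]
  exact h1 ζ h2 h3

/-- **`q ≥ 3`** -/
theorem kill_three (hF : Fintype.card F = q ^ 2) (hq : 3 ≤ q) (hn : 4 ≤ n) {a b c : PSU n F q}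
    (h : AllConj a b c) : a = 1 ∨ b = 1 := by
  obtain ⟨a, rfl⟩ := pr_surjective a
  obtain ⟨b, rfl⟩ := pr_surjective b
  obtain ⟨c, rfl⟩ := pr_surjective c
  by_cases ha : ∀ v : Fin n → F, hermForm n F q v v = 0 → hermForm n F q (act a v) v = 0
  · exact Or.inl (pr_eq_one_of_zero hF ha)
  · right
    push Not at ha
    obtain ⟨v, hv, hav⟩ := ha
    exact pr_eq_one_of_zero hF fun u hu => zero_of_norm hq (big_top hF hn) (nc_of_allConj hF (by omega) h _)
      trivial hv hav trivial hu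

/-- **Constant trace** -/
theorem kill_trace (hF : Fintype.card F = q ^ 2) (hn : 4 ≤ n) {a b c : SU n F q}
    (h : AllConj (pr n F q a) (pr n F q b) (pr n F q c))
    (h1 : ∀ ζ : F, ζ * ζ ^ q = 1 → ζ ^ n = 1 → ζ * (mat c).trace = (mat c).trace) :
    pr n F q a = 1 ∨ pr n F q b = 1 := by
  by_cases ha : ∀ v : Fin n → F, hermForm n F q v v = 0 → hermForm n F q (act a v) v = 0
  · exact Or.inl (pr_eq_one_of_zero hF ha)
  · right
    push Not at ha
    obtain ⟨v, hv, hav⟩ := ha
    exact pr_eq_one_of_zero hF fun u hu => zero_of_trace (big_top hF hn) (tc_of_allConj hF (by omega) h _ h1)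
      trivial hv hav trivial hu

theorem notA_three (hF : Fintype.card F = q ^ 2) (hq : 3 ≤ q) (hn : 4 ≤ n) (p : ℕ) : NotA p (PSU n F q) :=
  fun _ _ _ ha hb _ h _ _ _ => by
    rcases kill_three hF hq hn h with h1 | h1
    · exact ha h1
    · exact hb h1

theorem notC_three (hF : Fintype.card F = q ^ 2) (hq : 3 ≤ q) (hn : 4 ≤ n) (p : ℕ) : NotC p (PSU n F q) :=
  fun _ _ _ ha hb _ h _ => by
    rcases kill_three hF hq hn h with h1 | h1
    · exact ha h1
    · exact hb h1

end Cfsg.Agent.H519.AH
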