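import Mathlib
import Cfsg.Agent.H519.AH.RegTwo

/-!
# S2451, the unitary groups (helper519): `q = 2`, `c` unipotent, the stabiliser of a hyperbolic pair
-/

set_option autoImplicit false
set_option linter.unusedSectionVars false

namespace Cfsg.Agent.H519.AH

open Module Cfsg Cfsg.Agent.LieClassical.HermBasic Cfsg.Agent.LieClassical.HermSiegel
open Cfsg.Agent.H105.SzU Cfsg.Agent.H105.Sz Cfsg.Agent.ClassicalGeometry.HermOrtho Cfsg.Agent.LieClassical.HermGen
open Cfsg.Agent.ClassicalGeometry.UnitAutBasic Cfsg.Agent.H330.ClassProd Cfsg.Agent.H27.AH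
open scoped Matrix

section Pair

variable {F : Type*} [Field F] [Fintype F] {n q : ℕ}

theorem mem_perp_pair {e f x : Fin n → F} :
    x ∈ (⊤ ⊓ hermPerp q (Set.range ![e, f]) : Submodule F (Fin n → F)) ↔
      hermForm n F q x e = 0 ∧ hermForm n F q x f = 0 := by
  rw [Submodule.mem_inf, mem_hermPerp]
  simp only [Submodule.mem_top, true_and, Matrix.range_cons, Matrix.range_empty, Set.union_empty, Set.mem_union,
    Set.mem_singleton_iff, forall_eq_or_imp, forall_eq]

/-- the pointwise stabiliser of a hyperbolic pair is big -/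
theorem big_pair (hF : Fintype.card F = q ^ 2) (hn : 6 ≤ n) {e f : Fin n → F} (he : hermForm n F q e e = 0)
    (hf : hermForm n F q f f = 0) (hef : hermForm n F q e f = 1) :
    Big hF (fixPair e f q) (⊤ ⊓ hermPerp q (Set.range ![e, f])) where
  nd := nd_hyp hF (ND_top hF) trivial trivial he hf hef
  dim := by
    have h1 := finrank_inf_perp (q := q) (⊤ : Submodule F (Fin n → F)) ![e, f]
    rw [finrank_top, finrank_fin_fun] at h1
    omega
  sieg := fun u w μ h hu hw => by
    rw [mem_perp_pair] at hu hw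
    refine mem_fixPair.2 ⟨?_, ?_⟩
    · rw [act_siegel, herm_eq_zero_swap hF hu.1, herm_eq_zero_swap hF hw.1]
      simp
    · rw [act_siegel, herm_eq_zero_swap hF hu.2, herm_eq_zero_swap hF hw.2]
      simp
  tr := fun v w v' w' h h' => by
    have hfe : hermForm n F q f e = 1 := by rw [herm_swap hF e f, hef, one_pow]
    have li : ∀ v w : Fin n → F, TI q (⊤ ⊓ hermPerp q (Set.range ![e, f])) v w →
        LinearIndependent F ![e, f, v, w] := by
      intro v w h
      have hv := mem_perp_pair.1 h.mv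
      have hw := mem_perp_pair.1 h.mw
      rw [Fintype.linearIndependent_iff]
      intro g hg
      simp only [Fin.sum_univ_four, Matrix.cons_val_zero, Matrix.cons_val_one, Matrix.cons_val] at hg
      have h0 : g 0 = 0 := by
        have := congrArg (fun x => hermForm n F q x f) hg
        simp only [herm_add_left, herm_smul_left, herm_zero_left, hef, hf, hv.2, hw.2] at this
        linear_combination this
      have h1 : g 1 = 0 := by
        have := congrArg (fun x => hermForm n F q x e) hg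
        simp only [herm_add_left, herm_smul_left, herm_zero_left, he, hfe, hv.1, hw.1] at this
        linear_combination this
      rw [h0, h1, zero_smul, zero_smul, zero_add, zero_add] at hg
      have h2 := LinearIndependent.pair_iff.1 h.ind _ _ hg
      intro i
      fin_cases i
      · exact h0
      · exact h1
      · exact h2.1
      · exact h2.2
    have hv := mem_perp_pair.1 h.mv
    have hw := mem_perp_pair.1 h.mw
    have hv' := mem_perp_pair.1 h'.mv
    have hw' := mem_perp_pair.1 h'.mw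
    have sw : ∀ {x y : Fin n → F}, hermForm n F q x y = 0 → hermForm n F q y x = 0 := herm_eq_zero_swap hF
    obtain ⟨M, hM, hMi⟩ := exists_gu_ext hF ![e, f, v, w] ![e, f, v', w'] (li v w h) (li v' w' h') (by
      intro i j
      fin_cases i <;> fin_cases j <;>
        simp [he, hf, h.vv, h.ww, h.vw, h.wv hF, h'.vv, h'.ww, h'.vw, h'.wv hF, hv.1, hv.2, hw.1, hw.2,
          hv'.1, hv'.2, hw'.1, hw'.2, sw hv.1, sw hv.2, sw hw.1, sw hw.2, sw hv'.1, sw hv'.2, sw hw'.1, sw hw'.2])
    have hMe : M *ᵥ e = e := hMi 0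
    have hMf : M *ᵥ f = f := hMi 1
    have hMv : M *ᵥ v = v' := hMi 2
    have hMw : M *ᵥ w = w' := hMi 3
    have hdet : M.det ^ (q + 1) = 1 := LieClassical.GUOrder.det_mul_frob_det hF M hM
    have hdet0 : M.det ≠ 0 := LieClassical.GUOrder.det_ne_zero_of_isom hF M hM
    obtain ⟨f', hfU, hff', hwf', hvf'⟩ := h'.exists_f hF (nd_hyp hF (ND_top hF) trivial trivial he hf hef)
    rw [mem_perp_pair] at hfU
    obtain ⟨s, hs0, hs⟩ := hilbert90 hF (δ := (M.det)⁻¹) (by
      rw [← pow_succ', inv_pow, hdet, inv_one])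
    obtain ⟨D, hD1, hD2, hD3, hD4⟩ := exists_hyp_rot hF h'.ww hff' hwf' hs0
    have hsq : s ^ q ≠ 0 := pow_ne_zero _ hs0
    let k : SU n F q := mkSU (D * M) (by
      rw [Matrix.det_mul, hD2]
      have h1 : s * (s ^ q)⁻¹ = (M.det)⁻¹ := by
        rw [mul_inv_eq_iff_eq_mul₀ hsq]; exact hs
      rw [h1, inv_mul_cancel₀ hdet0]) (by
      intro u v
      rw [← Matrix.mulVec_mulVec, ← Matrix.mulVec_mulVec, hD1, hM])
    have hk : ∀ x, act k x = D *ᵥ (M *ᵥ x) := fun x => by
      rw [Matrix.mulVec_mulVec]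
      rfl
    refine ⟨k, mem_fixPair.2 ⟨?_, ?_⟩, 1, s, one_ne_zero, hs0, ?_, ?_⟩
    · rw [hk, hMe, hD4 _ (sw hw'.1) (sw hfU.1)]
    · rw [hk, hMf, hD4 _ (sw hw'.2) (sw hfU.2)]
    · rw [hk, hMv, hD4 _ h'.vw hvf', one_smul]
    · rw [hk, hMw, hD3]

/-- the property obtained from the stabiliser of a hyperbolic pair -/
def PB (b : SU n F q) : Prop :=
  ∀ y u : Fin n → F, hermForm n F q y y = 0 → hermForm n F q (act b y) y ≠ 0 → hermForm n F q u u = 0 →
    hermForm n F q u y = 0 → hermForm n F q u (act b y) = 0 → hermForm n F q (act b u) u = 0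

theorem herm_inv_left (a : SU n F q) (x y : Fin n → F) :
    hermForm n F q (act a⁻¹ x) y = hermForm n F q x (act a y) := by
  rw [← herm_act a, act_act_inv]

end Pair

section Two

variable {F : Type*} [Field F] [Fintype F] {n : ℕ}

/-- eigenvalues of scalar multiples of unipotent elements -/
theorem eig_unip (hF : Fintype.card F = 2 ^ 2) {z u : SU n F 2} {ζ θ : F} {m : ℕ} (hζ : ζ * ζ ^ 2 = 1)
    (hz : mat z = ζ • mat u) (hu : u ^ 2 ^ m = 1) {x : Fin n → F} (hx0 : x ≠ 0) (hx : act z x = θ • x) : θ = ζ := by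
  have : CharP F 2 := charP_two hF
  have hζ0 : ζ ≠ 0 := left_ne_zero_of_mul_eq_one hζ
  have h1 : act u x = (ζ⁻¹ * θ) • x := by
    have h2 : act z x = ζ • act u x := by
      rw [act_def, hz, Matrix.smul_mulVec, act_def]
    rw [hx] at h2
    rw [mul_smul, h2, smul_smul, inv_mul_cancel₀ hζ0, one_smul]
  have h2 : ∀ j : ℕ, act (u ^ j) x = (ζ⁻¹ * θ) ^ j • x := by
    intro j
    induction j with
    | zero => rw [pow_zero, act_one, pow_zero, one_smul]
    | succ j ih => rw [pow_succ, act_mul, h1, act_smul, ih, smul_smul, pow_succ']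
  have h3 := h2 (2 ^ m)
  rw [hu, act_one] at h3
  have h4 : (ζ⁻¹ * θ) ^ 2 ^ m = 1 := by
    have h8 : ((ζ⁻¹ * θ) ^ 2 ^ m - 1) • x = 0 := by rw [sub_smul, ← h3, one_smul, sub_self]
    exact sub_eq_zero.1 ((smul_eq_zero.1 h8).resolve_right hx0)
  have h5 : ζ⁻¹ * θ = 1 := by
    have h6 : (ζ⁻¹ * θ - 1) ^ 2 ^ m = 0 := by
      rw [sub_pow_char_pow, h4, one_pow, sub_self]
    exact sub_eq_zero.1 (pow_eq_zero_iff (by positivity) |>.1 h6)
  rw [inv_mul_eq_one₀ hζ0] at h5
  exact h5.symm

/-- the trace of a unipotent element -/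
theorem trace_unip (hF : Fintype.card F = 2 ^ 2) {u : SU n F 2} {m : ℕ} (hu : u ^ 2 ^ m = 1) :
    (mat u).trace = n := by
  have : CharP F 2 := charP_two hF
  rcases Nat.eq_zero_or_pos n with rfl | hn0
  · simp [Matrix.trace]
  have : Nonempty (Fin n) := ⟨⟨0, hn0⟩⟩
  have h1 : ∀ j : ℕ, mat (u ^ j) = mat u ^ j := by
    intro j
    induction j with
    | zero => rw [pow_zero, pow_zero, mat_one]
    | succ j ih => rw [pow_succ, pow_succ, mat_mul, ih]
  have h2 : mat u ^ 2 ^ m = 1 := by rw [← h1, hu, mat_one]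
  have h3 : IsNilpotent (mat u - 1) := by
    refine ⟨2 ^ m, ?_⟩
    rw [sub_pow_char_pow_of_commute, h2, one_pow, sub_self]
    exact Commute.one_right _
  have h4 := (Matrix.isNilpotent_trace_of_isNilpotent h3).eq_zero
  rw [Matrix.trace_sub, Matrix.trace_one, Fintype.card_fin] at h4
  exact sub_eq_zero.1 h4

/-- **The stabilisers of hyperbolic pairs.** -/
theorem pb_or (hF : Fintype.card F = 2 ^ 2) (hn : 6 ≤ n) {a b c : SU n F 2}
    (h : AllConj (pr n F 2 a) (pr n F 2 b) (pr n F 2 c)) {m : ℕ} (hc : c ^ 2 ^ m = 1) : PB a⁻¹ ∨ PB b := by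
  by_contra hcon
  rw [not_or] at hcon
  obtain ⟨hA, hB⟩ := hcon
  unfold PB at hA hB
  push Not at hA hB
  obtain ⟨x, v, hx, hax, hv, hvx, hvx', hav⟩ := hA
  obtain ⟨y, u, hy, hby, hu, huy, huy', hbu⟩ := hB
  set α := hermForm n F 2 (act a⁻¹ x) x with hα
  set β := hermForm n F 2 (act b y) y with hβ
  have hxa : hermForm n F 2 x (act a⁻¹ x) = α ^ 2 := herm_swap hF _ _
  have hyb : hermForm n F 2 y (act b y) = β ^ 2 := herm_swap hF _ _
  set x' := α⁻¹ • act a⁻¹ x with hx'
  set y' := β⁻¹ • act b y with hy'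
  have h1 : hermForm n F 2 x x' = 1 := by
    rw [hx', herm_smul_right, hxa, inv_pow, inv_mul_cancel₀ (pow_ne_zero _ hax)]
  have h2 : hermForm n F 2 y y' = 1 := by
    rw [hy', herm_smul_right, hyb, inv_pow, inv_mul_cancel₀ (pow_ne_zero _ hby)]
  have h3 : hermForm n F 2 x' x' = 0 := by
    rw [hx', herm_smul_right, herm_smul_left, herm_act, hx, mul_zero, mul_zero]
  have h4 : hermForm n F 2 y' y' = 0 := by
    rw [hy', herm_smul_right, herm_smul_left, herm_act, hy, mul_zero, mul_zero]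
  obtain ⟨g, -, hg1, hg2⟩ := exists_map_hyp hF (by omega) le_rfl (mem_coordSub_top x) (mem_coordSub_top x')
    (mem_coordSub_top y) (mem_coordSub_top y') hx h3 h1 hy h4 h2
  set b' := g⁻¹ * b * g⁻¹⁻¹ with hb'
  have hb'x : act b' x = (β * α⁻¹) • act a⁻¹ x := by
    have e1 : act b y = β • act g x' := by rw [hg2, hy', smul_smul, mul_inv_cancel₀ hby, one_smul]
    rw [hb', inv_inv, act_mul, act_mul, hg1, e1, act_smul, act_inv_act, hx', smul_smul]
  have hx0 : x ≠ 0 := by
    rintro rfl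
    exact hax (herm_zero_right hF _)
  have hTC : TC (fixPair x x' 2) a b' (β * α⁻¹ * n) := by
    intro k hk
    obtain ⟨l, ζ, e1, -, e2⟩ := lift_all hF (by omega) h (k * g⁻¹)
    have e3 : k * g⁻¹ * b * (k * g⁻¹)⁻¹ = k * b' * k⁻¹ := by rw [hb']; group
    rw [e3] at e2
    have e4 : (l * c * l⁻¹) ^ 2 ^ m = 1 := by rw [conj_pow, hc, mul_one, mul_inv_cancel]
    have hk1 : act k x = x := hk.1
    have hk2 : act k (act a⁻¹ x) = act a⁻¹ x := by
      have e5 : act a⁻¹ x = α • x' := by rw [hx', smul_smul, mul_inv_cancel₀ hax, one_smul]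
      rw [e5, act_smul, (mem_fixPair.1 hk).2]
    have hk3 : act k⁻¹ x = x := by
      have e6 := act_inv_act k x
      rwa [hk1] at e6
    have e5 : act (a * (k * b' * k⁻¹)) x = (β * α⁻¹) • x := by
      rw [act_mul, act_mul, act_mul, hk3, hb'x, act_smul, hk2, act_smul, act_act_inv]
    have e6 := eig_unip hF e1 e2 e4 hx0 e5
    rw [T_eq, e2, Matrix.trace_smul, trace_unip hF e4, smul_eq_mul, e6]
  have hvU : v ∈ (⊤ ⊓ hermPerp 2 (Set.range ![x, x']) : Submodule F (Fin n → F)) := by
    rw [mem_perp_pair]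
    exact ⟨hvx, by rw [hx', herm_smul_right, hvx', mul_zero]⟩
  have hua : hermForm n F 2 (act g⁻¹ u) x = 0 := by rw [herm_inv_left, hg1, huy]
  have hua' : hermForm n F 2 (act g⁻¹ u) x' = 0 := by
    rw [herm_inv_left, hg2, hy', herm_smul_right, huy', mul_zero]
  have hgU : act g⁻¹ u ∈ (⊤ ⊓ hermPerp 2 (Set.range ![x, x']) : Submodule F (Fin n → F)) :=
    mem_perp_pair.2 ⟨hua, hua'⟩
  have hav' : hermForm n F 2 (act a v) v ≠ 0 := by
    intro h0
    apply hav
    rw [herm_inv_left]
    exact herm_eq_zero_swap hF h0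
  have h5 := zero_of_trace (big_pair hF hn hx h3 h1) hTC hvU hv hav' hgU (by rw [herm_act, hu])
  rw [hb', herm_conj] at h5
  exact hbu h5

end Two

end Cfsg.Agent.H519.AH
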