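import Mathlib
import Cfsg.Agent.H519.AH.Kill
import Cfsg.Agent.H330.ClassSub

/-!
# S2451, the unitary groups (helper519): the `p`-subgroups commuting with a `p`-regular element

`exists_frame_fixed` : a `p`-subgroup commuting with a noncentral `p`-regular element `a` of `SU_n(q)`, `n ≥ 4`, fixes a
totally isotropic frame unless `a` is a reflection modulo scalars.
-/

set_option autoImplicit false
set_option linter.unusedSectionVars false

namespace Cfsg.Agent.H519.AH

open Module Cfsg Cfsg.Agent.LieClassical.HermBasic Cfsg.Agent.LieClassical.HermSiegel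
open Cfsg.Agent.H105.SzU Cfsg.Agent.H105.Sz Cfsg.Agent.ClassicalGeometry.HermOrtho Cfsg.Agent.LieClassical.HermGen
open Cfsg.Agent.ClassicalGeometry.UnitAutBasic Cfsg.Agent.H330.ClassProd Cfsg.Agent.H27.AH
open scoped Matrix

variable {F : Type*} [Field F] [Fintype F] {n q p : ℕ} [Fact p.Prime] [CharP F p]

/-- fixed vectors of `p`-groups -/
theorem exists_fixed {X : Subgroup (SU n F q)} (hX : IsPGroup p X) {S : Submodule F (Fin n → F)}
    (hS : ∀ x ∈ X, ∀ v ∈ S, act x v ∈ S) (h0 : S ≠ ⊥) : ∃ v ∈ S, v ≠ 0 ∧ ∀ x ∈ X, act x v = v := by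
  let _i : MulAction X S :=
    { smul := fun x v => ⟨act (x : SU n F q) (v : Fin n → F), hS x x.2 v v.2⟩
      one_smul := fun v => Subtype.ext (act_one _)
      mul_smul := fun x y v => Subtype.ext (act_mul _ _ _) }
  obtain ⟨v, hv, hv0⟩ := (Submodule.ne_bot_iff _).1 h0
  have hd : p ∣ Nat.card S := by
    have h1 : addOrderOf (⟨v, hv⟩ : S) = p := by
      refine addOrderOf_eq_prime ?_ ?_
      · apply Subtype.ext
        rw [Submodule.coe_smul_of_tower, ← Nat.cast_smul_eq_nsmul F, CharP.cast_eq_zero, zero_smul]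
        rfl
      · intro h
        exact hv0 (congrArg Subtype.val h)
    rw [← h1]
    exact addOrderOf_dvd_natCard _
  have h0f : (0 : S) ∈ MulAction.fixedPoints X S := fun x => Subtype.ext (act_zero _)
  obtain ⟨b, hb, hb0⟩ := hX.exists_fixed_point_of_prime_dvd_card_of_fixed_point S hd h0f
  refine ⟨b, b.2, ?_, fun x hx => congrArg Subtype.val (hb ⟨x, hx⟩)⟩
  intro h
  exact hb0 (Subtype.ext h.symm)

/-- semisimplicity of `p`-regular elements -/
theorem ker_sq {a : SU n F q} (ha : ¬ p ∣ orderOf a) {θ : F} (hθ : θ ≠ 0) {x y : Fin n → F} (h1 : act a x = θ • x + y)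
    (h2 : act a y = θ • y) : y = 0 := by
  by_contra hy
  have h3 : ∀ j : ℕ, act (a ^ j) y = θ ^ j • y := by
    intro j
    induction j with
    | zero => rw [pow_zero, act_one, pow_zero, one_smul]
    | succ j ih => rw [pow_succ, act_mul, h2, act_smul, ih, smul_smul, pow_succ']
  have h4 : ∀ j : ℕ, act (a ^ j) x = θ ^ j • x + (j * θ ^ j * θ⁻¹) • y := by
    intro j
    induction j with
    | zero => rw [pow_zero, act_one, pow_zero, one_smul]; simp
    | succ j ih =>
      rw [pow_succ, act_mul, h1, act_add, act_smul, ih, h3]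
      have e : θ ^ (j + 1) = θ ^ j * θ := pow_succ _ _
      rw [smul_add, smul_smul, smul_smul, add_assoc, ← add_smul, e, Nat.cast_add, Nat.cast_one]
      congr 2
      · ring
      · field_simp
  have h5 := h3 (orderOf a)
  have h6 := h4 (orderOf a)
  rw [pow_orderOf_eq_one, act_one] at h5 h6
  have h7 : θ ^ orderOf a = 1 := by
    have h8 : (θ ^ orderOf a - 1) • y = 0 := by rw [sub_smul, ← h5, one_smul, sub_self]
    exact sub_eq_zero.1 ((smul_eq_zero.1 h8).resolve_right hy)
  rw [h7, one_smul, mul_one, left_eq_add, smul_eq_zero] at h6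
  rcases h6 with h6 | h6
  · rcases mul_eq_zero.1 h6 with h6 | h6
    · exact ha ((CharP.cast_eq_zero_iff F p _).1 h6)
    · exact inv_ne_zero hθ h6
  · exact hy h6

/-- an eigenvector of norm one eigenvalue of a `p`-regular element is not in the radical of the eigenspace -/
theorem exists_eigen (hF : Fintype.card F = q ^ 2) {z : SU n F q} (hz : ¬ p ∣ orderOf z) {θ : F} (hθ : θ * θ ^ q = 1)
    {x : Fin n → F} (hx0 : x ≠ 0) (hx : act z x = θ • x) : ∃ y, act z y = θ • y ∧ hermForm n F q y x ≠ 0 := by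
  have hθ0 : θ ≠ 0 := left_ne_zero_of_mul_eq_one hθ
  have hθi : θ ^ q = θ⁻¹ := eq_inv_of_mul_eq_one_right hθ
  obtain ⟨u, hu⟩ := exists_herm_ne_zero hF hx0
  have hxj : ∀ j : ℕ, act (z ^ j) x = θ ^ j • x := by
    intro j
    induction j with
    | zero => rw [pow_zero, act_one, pow_zero, one_smul]
    | succ j ih => rw [pow_succ, act_mul, hx, act_smul, ih, smul_smul, pow_succ']
  set m := orderOf z with hm
  have hθm : θ ^ m = 1 := by
    have h5 := hxj m
    rw [hm, pow_orderOf_eq_one, act_one, ← hm] at h5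
    have h8 : (θ ^ m - 1) • x = 0 := by rw [sub_smul, ← h5, one_smul, sub_self]
    exact sub_eq_zero.1 ((smul_eq_zero.1 h8).resolve_right hx0)
  have hxu : hermForm n F q u x ≠ 0 := by
    intro h
    exact hu (herm_eq_zero_swap hF h)
  refine ⟨∑ i ∈ Finset.range m, (θ⁻¹) ^ i • act (z ^ i) u, ?_, ?_⟩
  · have h1 : ∑ i ∈ Finset.range m, (θ⁻¹) ^ (i + 1) • act (z ^ (i + 1)) u =
        ∑ i ∈ Finset.range m, (θ⁻¹) ^ i • act (z ^ i) u := by
      have h2 := Finset.sum_range_succ (fun i => (θ⁻¹) ^ i • act (z ^ i) u) m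
      have h3 := Finset.sum_range_succ' (fun i => (θ⁻¹) ^ i • act (z ^ i) u) m
      rw [h2] at h3
      have h4 : (θ⁻¹) ^ m • act (z ^ m) u = (θ⁻¹) ^ 0 • act (z ^ 0) u := by
        rw [inv_pow, hθm, hm, pow_orderOf_eq_one, inv_one, pow_zero, pow_zero]
      rw [h4] at h3
      exact (add_right_cancel h3).symm
    have h2 : act z (∑ i ∈ Finset.range m, (θ⁻¹) ^ i • act (z ^ i) u) =
        θ • ∑ i ∈ Finset.range m, (θ⁻¹) ^ (i + 1) • act (z ^ (i + 1)) u := by
      rw [act_sum, Finset.smul_sum]
      refine Finset.sum_congr rfl fun i _ => ?_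
      rw [act_smul, ← act_mul, ← pow_succ', smul_smul, pow_succ' (θ⁻¹), ← mul_assoc, mul_inv_cancel₀ hθ0, one_mul]
    rw [h2, h1]
  · have h1 : ∀ i : ℕ, hermForm n F q (act (z ^ i) u) x = θ ^ i * hermForm n F q u x := by
      intro i
      have h2 := herm_act (z ^ i) u x
      rw [hxj, herm_smul_right, ← pow_mul, mul_comm i q, pow_mul, hθi, inv_pow] at h2
      rw [← h2, ← mul_assoc, mul_inv_cancel₀ (pow_ne_zero _ hθ0), one_mul]
    rw [herm_sum_left]
    have h3 : ∀ i ∈ Finset.range m, hermForm n F q ((θ⁻¹) ^ i • act (z ^ i) u) x = hermForm n F q u x := by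
      intro i _
      rw [herm_smul_left, h1, ← mul_assoc, inv_pow, inv_mul_cancel₀ (pow_ne_zero _ hθ0), one_mul]
    rw [Finset.sum_congr rfl h3, Finset.sum_const, Finset.card_range, nsmul_eq_mul]
    refine mul_ne_zero ?_ hxu
    intro h
    exact hz ((CharP.cast_eq_zero_iff F p _).1 h)

/-- reflections modulo scalars -/
def Spec (a : SU n F q) : Prop :=
  ∃ (l μ : F) (w : Fin n → F), hermForm n F q w w ≠ 0 ∧ l * l ^ q = 1 ∧
    ∀ x, act a x = l • x + (μ * hermForm n F q x w) • w

theorem exists_iso_ne (hF : Fintype.card F = q ^ 2) (hn : 4 ≤ n) : ∃ v w : Fin n → F, TI q ⊤ v w := by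
  obtain ⟨v, -, hv0, hv⟩ := exists_iso hF (⊤ : Submodule F (Fin n → F)) (by
    rw [finrank_top, finrank_fin_fun]; omega)
  obtain ⟨w, hw⟩ := exists_frame hF (ND_top hF) (by rw [finrank_top, finrank_fin_fun]; omega) trivial hv0 hv
  exact ⟨v, w, hw⟩

theorem TI.of_ne {v w : Fin n → F} (hv0 : v ≠ 0) (hw0 : w ≠ 0) (hv : hermForm n F q v v = 0)
    (hw : hermForm n F q w w = 0) (hvw : hermForm n F q v w = 0) (hi : ¬ ∃ c : F, c • w = v) : TI q ⊤ v w :=
  ⟨trivial, trivial, hv, hw, hvw, (indep_iff hv0 hw0).2 hi⟩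

/-- **The `p`-subgroups commuting with a `p`-regular element.** -/
theorem exists_frame_fixed (hF : Fintype.card F = q ^ 2) (hn : 4 ≤ n) {a : SU n F q} (ha : ¬ p ∣ orderOf a)
    (ha1 : pr n F q a ≠ 1) (hs : ¬ Spec a) {X : Subgroup (SU n F q)} (hX : IsPGroup p X)
    (hXa : ∀ x ∈ X, x * a = a * x) : ∃ v w, TI q ⊤ v w ∧ ∀ x ∈ X, act x v = v ∧ act x w = w := by
  by_contra hcon
  have hno : ∀ v w : Fin n → F, TI q ⊤ v w → (∀ x ∈ X, act x v = v) → ¬ (∀ x ∈ X, act x w = w) :=
    fun v w h h1 h2 => hcon ⟨v, w, h, fun x hx => ⟨h1 x hx, h2 x hx⟩⟩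
  have hcomm : ∀ x ∈ X, ∀ v : Fin n → F, act x (act a v) = act a (act x v) := by
    intro x hx v
    rw [← act_mul, hXa x hx, act_mul]
  -- `[V, X]`
  let S : Submodule F (Fin n → F) := Submodule.span F {y | ∃ x ∈ X, ∃ v : Fin n → F, y = act x v - v}
  have hSW : ∀ s ∈ S, ∀ w : Fin n → F, (∀ x ∈ X, act x w = w) → hermForm n F q s w = 0 := by
    intro s hs w hw
    induction hs using Submodule.span_induction with
    | mem y hy =>
      obtain ⟨x, hx, v, rfl⟩ := hy
      rw [herm_sub_left]
      have h1 := herm_act x v w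
      rw [hw x hx] at h1
      rw [h1, sub_self]
    | zero => exact herm_zero_left _
    | add y z _ _ hy hz => rw [herm_add_left, hy, hz, add_zero]
    | smul c y _ hy => rw [herm_smul_left, hy, mul_zero]
  have hSX : ∀ x ∈ X, ∀ v ∈ S, act x v ∈ S := by
    intro x hx v hv
    induction hv using Submodule.span_induction with
    | mem y hy =>
      obtain ⟨x', hx', v, rfl⟩ := hy
      have e : act x (act x' v - v) = (act (x * x') v - v) - (act x v - v) := by
        rw [act_sub, act_mul]
        abel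
      rw [e]
      exact S.sub_mem (Submodule.subset_span ⟨_, X.mul_mem hx hx', v, rfl⟩) (Submodule.subset_span ⟨x, hx, v, rfl⟩)
    | zero => rw [act_zero]; exact S.zero_mem
    | add y z _ _ hy hz => rw [act_add]; exact S.add_mem hy hz
    | smul c y _ hy => rw [act_smul]; exact S.smul_mem _ hy
  have hSa : ∀ v ∈ S, act a v ∈ S := by
    intro v hv
    induction hv using Submodule.span_induction with
    | mem y hy =>
      obtain ⟨x', hx', v, rfl⟩ := hy
      rw [act_sub, ← hcomm x' hx']
      exact Submodule.subset_span ⟨x', hx', _, rfl⟩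
    | zero => rw [act_zero]; exact S.zero_mem
    | add y z _ _ hy hz => rw [act_add]; exact S.add_mem hy hz
    | smul c y _ hy => rw [act_smul]; exact S.smul_mem _ hy
  have hS0 : S ≠ ⊥ := by
    intro h
    obtain ⟨v, w, hvw⟩ := exists_iso_ne (n := n) hF hn
    have h1 : ∀ x ∈ X, ∀ v : Fin n → F, act x v = v := by
      intro x hx v
      have h2 : act x v - v ∈ S := Submodule.subset_span ⟨x, hx, v, rfl⟩
      rw [h, Submodule.mem_bot] at h2
      exact sub_eq_zero.1 h2
    exact hno v w hvw (fun x hx => h1 x hx v) (fun x hx => h1 x hx w)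
  obtain ⟨r, hrS, hr0, hr⟩ := exists_fixed hX hSX hS0
  have hrr : hermForm n F q r r = 0 := hSW r hrS r hr
  -- `r` is an eigenvector
  obtain ⟨l, hl⟩ : ∃ l : F, act a r = l • r := by
    by_contra hc
    push Not at hc
    refine hno (act a r) r (TI.of_ne (by rw [Ne, act_eq_zero]; exact hr0) hr0 ?_ hrr ?_ ?_) ?_ hr
    · rw [herm_act, hrr]
    · exact hSW _ (hSa r hrS) r hr
    · rintro ⟨c, hc'⟩
      exact hc c hc'.symm
    · intro x hx
      rw [hcomm x hx, hr x hx]
  have hl0 : l ≠ 0 := by
    rintro rfl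
    rw [zero_smul, act_eq_zero] at hl
    exact hr0 hl
  have hlq : l ^ q ≠ 0 := pow_ne_zero _ hl0
  by_cases hN : l * l ^ q = 1
  · -- norm one
    let D : (Fin n → F) →ₗ[F] (Fin n → F) :=
      { toFun := fun x => act a x - l • x
        map_add' := fun x y => by rw [act_add, smul_add]; abel
        map_smul' := fun c x => by
          rw [act_smul, smul_comm l c, ← smul_sub]
          rfl }
    have hD : ∀ x, D x = act a x - l • x := fun _ => rfl
    let S2 : Submodule F (Fin n → F) := LinearMap.range D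
    have hS2X : ∀ x ∈ X, ∀ v ∈ S2, act x v ∈ S2 := by
      rintro x hx _ ⟨v, rfl⟩
      refine ⟨act x v, ?_⟩
      rw [hD, hD, act_sub, act_smul, hcomm x hx]
    have hS20 : S2 ≠ ⊥ := by
      intro h
      apply ha1
      have h1 : ∀ x : Fin n → F, act a x = l • act (1 : SU n F q) x := by
        intro x
        have h2 : D x ∈ S2 := ⟨x, rfl⟩
        rw [h, Submodule.mem_bot, hD] at h2
        rw [act_one]
        exact sub_eq_zero.1 h2
      rw [← pr_eq_of_scalar h1, map_one]
    -- orthogonality of the kernel and the image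
    have hlq' : l ^ q = l⁻¹ := eq_inv_of_mul_eq_one_right hN
    have horth : ∀ u : Fin n → F, act a u = l • u → ∀ s ∈ S2, hermForm n F q u s = 0 := by
      rintro u hu _ ⟨x, rfl⟩
      rw [hD, herm_sub_right hF, herm_smul_right]
      have h1 := herm_act a u x
      rw [hu, herm_smul_left] at h1
      rw [← h1, hlq', ← mul_assoc, inv_mul_cancel₀ hl0, one_mul, sub_self]
    have hdisj : ∀ u ∈ S2, act a u = l • u → u = 0 := by
      rintro _ ⟨x, rfl⟩ hu
      refine ker_sq ha hl0 (x := x) (y := D x) ?_ hu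
      rw [hD]
      abel
    -- no isotropic fixed vector in the image
    have hiso : ∀ w ∈ S2, (∀ x ∈ X, act x w = w) → hermForm n F q w w = 0 → w = 0 := by
      intro w hw hwX hww
      by_contra hw0
      refine hno w r (TI.of_ne hw0 hr0 hww hrr (herm_eq_zero_swap hF (horth r hl w hw)) ?_) hwX hr
      rintro ⟨c, rfl⟩
      exact hw0 (hdisj _ hw (by rw [act_smul, hl, smul_comm]))
    obtain ⟨w, hwS, hw0, hwX⟩ := exists_fixed hX hS2X hS20
    have hww : hermForm n F q w w ≠ 0 := fun h => hw0 (hiso w hwS hwX h)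
    -- the orthogonal complement of `w` in the image
    let S3 : Submodule F (Fin n → F) := S2 ⊓ hermPerp q {w}
    have hmem3 : ∀ x, x ∈ S3 ↔ x ∈ S2 ∧ hermForm n F q x w = 0 := by
      intro x
      rw [Submodule.mem_inf, mem_hermPerp]
      simp
    have hS3 : S3 = ⊥ := by
      by_contra h3
      obtain ⟨w', hwS', hw0', hwX'⟩ := exists_fixed hX (S := S3) (fun x hx v hv => by
        rw [hmem3] at hv ⊢
        refine ⟨hS2X x hx v hv.1, ?_⟩
        have h1 := herm_act x v w
        rw [hwX x hx, hv.2] at h1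
        exact h1) h3
      rw [hmem3] at hwS'
      have hww' : hermForm n F q w' w' ≠ 0 := fun h => hw0' (hiso w' hwS'.1 hwX' h)
      obtain ⟨t, ht⟩ := exists_norm_eq hF (c := - (hermForm n F q w w / hermForm n F q w' w')) (by
        rw [neg_pow_q hF, div_pow, herm_self_pow hF, herm_self_pow hF])
      have h1 : w + t • w' = 0 := by
        refine hiso _ (S2.add_mem hwS (S2.smul_mem _ hwS'.1)) (fun x hx => by
          rw [act_add, act_smul, hwX x hx, hwX' x hx]) ?_
        rw [herm_add_left, herm_add_right hF, herm_add_right hF, herm_smul_left, herm_smul_left, herm_smul_right,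
          herm_smul_right, hwS'.2, herm_eq_zero_swap hF hwS'.2]
        field_simp at ht
        linear_combination ht
      have h2 : hermForm n F q (w + t • w') w = 0 := by rw [h1, herm_zero_left]
      rw [herm_add_left, herm_smul_left, hwS'.2, mul_zero, add_zero] at h2
      exact hww h2
    have hline : ∀ s ∈ S2, s = (hermForm n F q s w / hermForm n F q w w) • w := by
      intro s hs
      have h1 : s - (hermForm n F q s w / hermForm n F q w w) • w ∈ S3 := by
        rw [hmem3]
        refine ⟨S2.sub_mem hs (S2.smul_mem _ hwS), ?_⟩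
        rw [herm_sub_left, herm_smul_left, div_mul_cancel₀ _ hww, sub_self]
      rw [hS3, Submodule.mem_bot] at h1
      exact sub_eq_zero.1 h1
    apply hs
    -- `a w = ρ w`
    obtain ⟨ρ, hρ⟩ : ∃ ρ : F, act a w = ρ • w := by
      have h1 := hline (D w) ⟨w, rfl⟩
      rw [hD] at h1
      refine ⟨hermForm n F q (act a w - l • w) w / hermForm n F q w w + l, ?_⟩
      rw [add_smul, ← h1]
      abel
    have hρ0 : ρ ≠ 0 := by
      rintro rfl
      rw [zero_smul, act_eq_zero] at hρ
      exact hw0 hρ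
    have hρq : ρ ^ q ≠ 0 := pow_ne_zero _ hρ0
    refine ⟨l, ((ρ ^ q)⁻¹ - l) / hermForm n F q w w, w, hww, hN, fun x => ?_⟩
    have h1 := hline (D x) ⟨x, rfl⟩
    have h2 : hermForm n F q (D x) w = ((ρ ^ q)⁻¹ - l) * hermForm n F q x w := by
      rw [hD, herm_sub_left, herm_smul_left]
      have h3 := herm_act a x w
      rw [hρ, herm_smul_right] at h3
      rw [← h3]
      field_simp
    rw [h2, hD] at h1
    rw [sub_eq_iff_eq_add'.1 h1]
    congr 2
    ring
  · -- norm not one: another eigenvalue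
    set l' := (l ^ q)⁻¹ with hl'
    have hl'0 : l' ≠ 0 := inv_ne_zero hlq
    let D : (Fin n → F) →ₗ[F] (Fin n → F) :=
      { toFun := fun x => act a x - l' • x
        map_add' := fun x y => by rw [act_add, smul_add]; abel
        map_smul' := fun c x => by
          rw [act_smul, smul_comm l' c, ← smul_sub]
          rfl }
    have hD : ∀ x, D x = act a x - l' • x := fun _ => rfl
    have hns : ¬ Function.Surjective D := by
      intro hsur
      obtain ⟨u, hu⟩ := exists_herm_ne_zero hF hr0
      obtain ⟨x, hx⟩ := hsur u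
      apply hu
      apply herm_eq_zero_swap hF
      rw [← hx, hD, herm_sub_left, herm_smul_left]
      have h3 := herm_act a x r
      rw [hl, herm_smul_right] at h3
      rw [← h3, hl', ← mul_assoc, inv_mul_cancel₀ hlq, one_mul, sub_self]
    have hni : LinearMap.ker D ≠ ⊥ := by
      intro h
      exact hns (LinearMap.injective_iff_surjective.1 (LinearMap.ker_eq_bot.1 h))
    obtain ⟨r', hrS', hr0', hrX'⟩ := exists_fixed hX (S := LinearMap.ker D) (fun x hx v hv => by
      rw [LinearMap.mem_ker, hD] at hv ⊢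
      rw [← hcomm x hx, ← act_smul, ← act_sub, hv, act_zero]) hni
    rw [LinearMap.mem_ker, hD, sub_eq_zero] at hrS'
    have hN' : l' * l' ^ q ≠ 1 := by
      rw [hl', inv_pow, pow_q_pow_q hF, ← mul_inv]
      intro h
      apply hN
      rw [inv_eq_one] at h
      rw [mul_comm]
      exact h
    refine hno r r' (TI.of_ne hr0 hr0' hrr ?_ (hSW r hrS r' hrX') ?_) hr hrX'
    · have h1 := herm_act a r' r'
      rw [hrS', herm_smul_left, herm_smul_right] at h1
      have h2 : (l' * l' ^ q - 1) * hermForm n F q r' r' = 0 := by linear_combination h1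
      exact (mul_eq_zero.1 h2).resolve_left (sub_ne_zero.2 hN')
    · rintro ⟨c, hc⟩
      have h1 : l • r = l' • r := by rw [← hl, ← hc, act_smul, hrS', smul_comm]
      have h2 : (l - l') • r = 0 := by rw [sub_smul, h1, sub_self]
      have h3 : l = l' := sub_eq_zero.1 ((smul_eq_zero.1 h2).resolve_right hr0)
      apply hN
      have h4 : l * l ^ q = l' * l ^ q := congrArg (fun t => t * l ^ q) h3
      rw [h4, hl', inv_mul_cancel₀ hlq]

end Cfsg.Agent.H519.AH
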