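import Mathlib
import Cfsg.Agent.H519.AH.Transv
import Cfsg.Agent.H519.AH.EThree

/-!
# S2451, the unitary groups (helper519): `q = 2`, the unipotent case
-/

set_option autoImplicit false
set_option linter.unusedSectionVars false

namespace Cfsg.Agent.H519.AH

open Module Cfsg Cfsg.Agent.LieClassical.HermBasic Cfsg.Agent.LieClassical.HermSiegel
open Cfsg.Agent.H105.SzU Cfsg.Agent.H105.Sz Cfsg.Agent.ClassicalGeometry.HermOrtho Cfsg.Agent.LieClassical.HermGen
open Cfsg.Agent.ClassicalGeometry.UnitAutBasic Cfsg.Agent.H330.ClassProd Cfsg.Agent.H27.AH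
open scoped Matrix

variable {F : Type*} [Field F] [Fintype F] {n : ℕ}

/-- the situation after the reduction: `z v` is a scalar times a conjugate of `c` -/
structure Sit (a c : SU n F 2) (κ δ : F) (m : ℕ) (v : Fin n → F) (ζ : F) : Prop where
  ex : ∃ z u : SU n F 2, ζ * ζ ^ 2 = 1 ∧ u ^ 2 ^ m = 1 ∧ mat z = ζ • mat u ∧ e3 (mat u) = e3 (mat c) ∧
    ∀ x, act z x = κ • act a x + (δ * hermForm n F 2 x v) • act a v

theorem exists_sit (hF : Fintype.card F = 2 ^ 2) (hn : 3 ≤ n) {a b c : SU n F 2}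
    (h : AllConj (pr n F 2 a) (pr n F 2 b) (pr n F 2 c)) {m : ℕ} (hc : c ^ 2 ^ m = 1) {κ δ : F} {ρ : Fin n → F}
    (hρ0 : ρ ≠ 0) (hρ : hermForm n F 2 ρ ρ = 0)
    (hb : ∀ x, act b x = κ • x + (δ * hermForm n F 2 x ρ) • ρ) {v : Fin n → F} (hv0 : v ≠ 0)
    (hv : hermForm n F 2 v v = 0) : ∃ ζ, Sit a c κ δ m v ζ := by
  obtain ⟨g, -, hg⟩ := exists_map_iso hF hn le_rfl (mem_coordSub_top ρ) (mem_coordSub_top v) hρ0 hv0 hρ hv
  obtain ⟨l, ζ, e1, -, e2⟩ := lift_all hF hn h g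
  refine ⟨ζ, ⟨a * (g * b * g⁻¹), l * c * l⁻¹, e1, ?_, e2, ?_, ?_⟩⟩
  · rw [conj_pow, hc, mul_one, mul_inv_cancel]
  · rw [mat_mul, mat_mul]
    refine e3_conj ?_ _
    rw [← mat_mul, inv_mul_cancel, mat_one]
  · intro x
    rw [act_mul, act_mul, act_mul, hb, act_add, act_smul, act_smul, act_act_inv, hg, act_add, act_smul, act_smul,
      herm_inv_left, hg]

variable {a c : SU n F 2} {κ δ : F} {m : ℕ} {v : Fin n → F} {ζ : F}

theorem dot_eq (x v : Fin n → F) : (fun i => v i ^ 2) ⬝ᵥ x = hermForm n F 2 x v := by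
  rw [herm_def, dotProduct]
  exact Finset.sum_congr rfl fun i _ => mul_comm _ _

theorem Sit.mat_eq (h : Sit a c κ δ m v ζ) : ∃ z u : SU n F 2, ζ * ζ ^ 2 = 1 ∧ u ^ 2 ^ m = 1 ∧ mat z = ζ • mat u ∧
    e3 (mat u) = e3 (mat c) ∧ mat z = κ • mat a + Matrix.vecMulVec (δ • act a v) (fun i => v i ^ 2) := by
  obtain ⟨z, u, h1, h2, h3, h4, h5⟩ := h.ex
  refine ⟨z, u, h1, h2, h3, h4, mat_ext fun x => ?_⟩
  rw [Matrix.add_mulVec, Matrix.smul_mulVec, Matrix.vecMulVec_mulVec, op_smul_eq_smul, dot_eq, smul_smul]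
  change act z x = κ • act a x + _
  rw [h5, mul_comm δ]

/-- eigenvectors of `κ a` orthogonal to `v` -/
theorem Sit.eig (hF : Fintype.card F = 2 ^ 2) (h : Sit a c κ δ m v ζ) {θ : F} {x : Fin n → F} (hx0 : x ≠ 0)
    (hx : κ • act a x = θ • x) (hxv : hermForm n F 2 x v = 0) : θ = ζ := by
  obtain ⟨z, u, h1, h2, h3, -, h5⟩ := h.ex
  refine eig_unip hF h1 h3 h2 hx0 ?_
  rw [h5, hxv, mul_zero, zero_smul, add_zero, hx]

/-- the trace -/
theorem Sit.trace (hF : Fintype.card F = 2 ^ 2) (h : Sit a c κ δ m v ζ) :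
    hermForm n F 2 (δ • act a v) v = ζ * n - κ * (mat a).trace := by
  obtain ⟨z, u, h1, h2, h3, -, h5⟩ := h.mat_eq
  have h6 := congrArg Matrix.trace h5
  rw [h3, Matrix.trace_smul, trace_unip hF h2, Matrix.trace_add, Matrix.trace_smul, Matrix.trace_vecMulVec,
    dotProduct_comm, dot_eq] at h6
  rw [smul_eq_mul, smul_eq_mul] at h6
  linear_combination -h6

/-- the third coefficient -/
theorem Sit.third (hF : Fintype.card F = 2 ^ 2) (h : Sit a c κ δ m v ζ) :
    hermForm n F 2 ((κ • mat a).charpolyRev.coeff 2 • δ • act a v +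
      (κ • mat a).charpolyRev.coeff 1 • (κ • act a (δ • act a v)) +
      κ • act a (κ • act a (δ • act a v))) v = e3 (κ • mat a) - e3 (mat c) := by
  obtain ⟨z, u, h1, h2, h3, h4, h5⟩ := h.mat_eq
  have h6 := congrArg e3 h5
  have hζ : ζ ^ 3 = 1 := by rw [pow_succ']; exact h1
  rw [h3, e3_smul, hζ, one_mul, h4, e3_rank_one, dot_eq, dot_eq, dot_eq] at h6
  rw [herm_add_left, herm_add_left, herm_smul_left ((κ • mat a).charpolyRev.coeff 2),
    herm_smul_left ((κ • mat a).charpolyRev.coeff 1)]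
  have e1 : ∀ x : Fin n → F, (κ • mat a) *ᵥ x = κ • act a x := fun x => Matrix.smul_mulVec _ _ _
  rw [e1, e1] at h6
  linear_combination h6

/-- the roots of a cubic relation -/
theorem Sit.root (hF : Fintype.card F = 2 ^ 2) (hn : 4 ≤ n) (h : Sit a c κ δ m v ζ) {c1 c2 r : F}
    (hcub : ∀ x : Fin n → F, κ • act a (κ • act a (κ • act a x)) + c1 • (κ • act a (κ • act a x)) +
      c2 • (κ • act a x) = r • x) : ζ ^ 3 + c1 * ζ ^ 2 + c2 * ζ = r := by
  have : Fact (Nat.Prime 2) := ⟨Nat.prime_two⟩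
  have : CharP F 2 := charP_two hF
  obtain ⟨z, u, h1, h2, h3, -, h5⟩ := h.ex
  have hζ0 : ζ ≠ 0 := left_ne_zero_of_mul_eq_one h1
  have hzu : ∀ x, act z x = ζ • act u x := fun x => by
    rw [act_def, h3, Matrix.smul_mulVec, act_def]
  let A : (Fin n → F) →ₗ[F] (Fin n → F) :=
    { toFun := fun x => κ • act a x
      map_add' := fun x y => by rw [act_add, smul_add]
      map_smul' := fun c x => by rw [act_smul, smul_comm, RingHom.id_apply] }
  have hA : ∀ x, A x = κ • act a x := fun _ => rfl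
  let φ : (Fin n → F) →ₗ[F] (Fin 3 → F) := LinearMap.pi ![hermLeft 2 v, (hermLeft 2 v).comp A,
    ((hermLeft 2 v).comp A).comp A]
  obtain ⟨x, hx, hx0⟩ := (Submodule.ne_bot_iff _).1 (LinearMap.ker_ne_bot_of_finrank_lt (f := φ) (by
    rw [finrank_fin_fun, finrank_fin_fun]
    omega))
  rw [LinearMap.mem_ker] at hx
  have hx1 : hermForm n F 2 x v = 0 := congrFun hx 0
  have hx2 : hermForm n F 2 (κ • act a x) v = 0 := congrFun hx 1
  have hx3 : hermForm n F 2 (κ • act a (κ • act a x)) v = 0 := congrFun hx 2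
  have e1 : act z x = κ • act a x := by rw [h5, hx1, mul_zero, zero_smul, add_zero]
  have e2 : act z (κ • act a x) = κ • act a (κ • act a x) := by
    rw [h5, hx2, mul_zero, zero_smul, add_zero]
  have e3 : act z (κ • act a (κ • act a x)) = κ • act a (κ • act a (κ • act a x)) := by
    rw [h5, hx3, mul_zero, zero_smul, add_zero]
  let S : Submodule F (Fin n → F) :=
    { carrier := {x | act z (act z (act z x)) + c1 • act z (act z x) + c2 • act z x = r • x}
      add_mem' := fun {x y} hx hy => by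
        simp only [Set.mem_ofPred_eq, act_add, smul_add] at hx hy ⊢
        rw [← hx, ← hy]
        abel
      zero_mem' := by
        simp only [Set.mem_ofPred_eq, act_zero, smul_zero, add_zero]
      smul_mem' := fun c x hx => by
        simp only [Set.mem_ofPred_eq, act_smul] at hx ⊢
        rw [smul_comm r c x, ← hx]
        module }
  have hS : ∀ x, x ∈ S ↔ act z (act z (act z x)) + c1 • act z (act z x) + c2 • act z x = r • x := fun _ => Iff.rfl
  have hxS : x ∈ S := by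
    rw [hS, e1, e2, e3]
    exact hcub x
  have hS0 : S ≠ ⊥ := fun h0 => hx0 (by rw [h0] at hxS; exact (Submodule.mem_bot F).1 hxS)
  have hSu : ∀ y ∈ S, act u y ∈ S := by
    intro y hy
    rw [hS] at hy
    have e4 : act z y ∈ S := by
      rw [hS]
      have e6 := congrArg (act z) hy
      rwa [act_add, act_add, act_smul, act_smul, act_smul] at e6
    have e5 : act u y = ζ⁻¹ • act z y := by rw [hzu, smul_smul, inv_mul_cancel₀ hζ0, one_smul]
    rw [e5]
    exact S.smul_mem _ e4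
  have hX : IsPGroup 2 (Subgroup.zpowers u) := by
    rintro ⟨_, ⟨k, rfl⟩⟩
    refine ⟨m, Subtype.ext ?_⟩
    change (u ^ k) ^ 2 ^ m = 1
    rw [← zpow_natCast, ← zpow_mul, mul_comm, zpow_mul, zpow_natCast, h2, one_zpow]
  have hpow : ∀ j : ℕ, ∀ y ∈ S, act (u ^ j) y ∈ S := by
    intro j
    induction j with
    | zero => intro y hy; rwa [pow_zero, act_one]
    | succ j ih => intro y hy; rw [pow_succ, act_mul]; exact ih _ (hSu y hy)
  obtain ⟨y, hyS, hy0, hy⟩ := exists_fixed (p := 2) hX (S := S) (by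
    intro g hg y hy
    obtain ⟨j, rfl⟩ := mem_powers_iff_mem_zpowers.2 hg
    exact hpow j y hy) hS0
  have hy1 := hy u (Subgroup.mem_zpowers u)
  have hy2 : act z y = ζ • y := by rw [hzu, hy1]
  rw [hS, hy2, act_smul, hy2, act_smul, act_smul, hy2] at hyS
  have e6 : (ζ ^ 3 + c1 * ζ ^ 2 + c2 * ζ - r) • y = 0 := by
    rw [sub_smul, ← hyS]
    module
  exact sub_eq_zero.1 ((smul_eq_zero.1 e6).resolve_right hy0)

/-- **The transvection case.** -/
theorem kill_transv (hF : Fintype.card F = 2 ^ 2) (hn : 4 ≤ n) {a b c : SU n F 2}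
    (h : AllConj (pr n F 2 a) (pr n F 2 b) (pr n F 2 c)) {m : ℕ} (hc : c ^ 2 ^ m = 1) {κ δ : F} {ρ : Fin n → F}
    (hκ0 : κ ≠ 0) (hδ0 : δ ≠ 0) (hρ0 : ρ ≠ 0) (hρ : hermForm n F 2 ρ ρ = 0)
    (hb : ∀ x, act b x = κ • x + (δ * hermForm n F 2 x ρ) • ρ) : pr n F 2 a = 1 := by
  have hsit : ∀ v : Fin n → F, v ≠ 0 → hermForm n F 2 v v = 0 → ∃ ζ, Sit a c κ δ m v ζ := fun v hv0 hv =>
    exists_sit hF (by omega) h hc hρ0 hρ hb hv0 hv
  have hfin : finrank F (⊤ : Submodule F (Fin n → F)) = n := by rw [finrank_top, finrank_fin_fun]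
  -- the cubic relation
  set c1 := (κ • mat a).charpolyRev.coeff 1 with hc1
  set c2 := (κ • mat a).charpolyRev.coeff 2 with hc2
  obtain ⟨r, hcub⟩ : ∃ r : F, ∀ x : Fin n → F, κ • act a (κ • act a (κ • act a x)) +
      c1 • (κ • act a (κ • act a x)) + c2 • (κ • act a x) = r • x := by
    have hs : Sesq 2 (fun x y : Fin n → F => hermForm n F 2 (c2 • δ • act a x +
        c1 • (κ • act a (δ • act a x)) + κ • act a (κ • act a (δ • act a x))) y) := by
      refine ⟨fun x x' y => ?_, fun x y y' => herm_add_right hF _ _ _, fun c x y => ?_,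
        fun c x y => herm_smul_right _ _ _⟩
      · rw [← herm_add_left]
        congr 1
        simp only [act_add, smul_add]
        abel
      · rw [← herm_smul_left]
        congr 1
        simp only [act_smul, smul_add]
        module
    obtain ⟨ρ', hρ'⟩ := sesq_scalar_const hF hs (ND_top hF) (κ := e3 (κ • mat a) - e3 (mat c))
      (Or.inr (by rw [hfin]; omega)) (by
      intro v _ hv0 hv
      obtain ⟨ζ, hζ⟩ := hsit v hv0 hv
      exact hζ.third hF)
    have h1 : ∀ x : Fin n → F, c2 • δ • act a x + c1 • (κ • act a (δ • act a x)) +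
        κ • act a (κ • act a (δ • act a x)) = ρ' • x := by
      intro x
      rw [← sub_eq_zero]
      refine herm_nondeg hF fun y => ?_
      rw [herm_sub_left, herm_smul_left]
      exact sub_eq_zero.2 (hρ' x trivial y trivial)
    refine ⟨κ * δ⁻¹ * ρ', fun x => ?_⟩
    rw [mul_smul, ← h1 x]
    simp only [act_smul, smul_add, smul_smul]
    have e1 : κ * δ⁻¹ * (c2 * δ) = c2 * κ := by field_simp
    have e2 : κ * δ⁻¹ * (c1 * (κ * δ)) = c1 * (κ * κ) := by field_simp
    have e3 : κ * δ⁻¹ * (κ * (κ * δ)) = κ * (κ * κ) := by field_simp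
    rw [e1, e2, e3]
    abel
  have hroot : ∀ {v : Fin n → F} {ζ : F}, Sit a c κ δ m v ζ → ζ ^ 3 + c1 * ζ ^ 2 + c2 * ζ = r :=
    fun hζ => hζ.root hF hn hcub
  -- the scalar is constant
  have hconst : ∀ v1 v2 : Fin n → F, ∀ ζ1 ζ2 : F, Sit a c κ δ m v1 ζ1 → Sit a c κ δ m v2 ζ2 → ζ1 = ζ2 := by
    intro v1 v2 ζ1 ζ2 h1 h2
    by_contra hne
    have hne' : ζ1 - ζ2 ≠ 0 := sub_ne_zero.2 hne
    have r1 := hroot h1
    have r2 := hroot h2
    set ζ3 := - c1 - ζ1 - ζ2 with hζ3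
    have hc2' : c2 = ζ1 * ζ2 + ζ1 * ζ3 + ζ2 * ζ3 := by
      apply mul_left_cancel₀ hne'
      rw [hζ3]
      linear_combination r1 - r2
    have hr' : r = ζ1 * ζ2 * ζ3 := by
      rw [← r1, hc2', hζ3]
      ring
    have hc1' : c1 = - ζ1 - ζ2 - ζ3 := by rw [hζ3]; ring
    let A : (Fin n → F) →ₗ[F] (Fin n → F) :=
      { toFun := fun x => κ • act a x
        map_add' := fun x y => by rw [act_add, smul_add]
        map_smul' := fun c x => by rw [act_smul, smul_comm, RingHom.id_apply] }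
    have hA : ∀ x, A x = κ • act a x := fun _ => rfl
    let D : F → ((Fin n → F) →ₗ[F] (Fin n → F)) := fun θ => A - θ • LinearMap.id
    have hD : ∀ θ x, D θ x = κ • act a x - θ • x := fun _ _ => rfl
    obtain ⟨v3, hv3⟩ : ∃ v3 : Fin n → F, ∀ w : Fin n → F, hermForm n F 2 w v3 = 0 → D ζ3 w = 0 → w = 0 := by
      by_cases h31 : ζ3 = ζ1
      · refine ⟨v2, fun w hw hD3 => ?_⟩
        by_contra hw0
        rw [hD, sub_eq_zero] at hD3
        exact hne (h31 ▸ h2.eig hF hw0 hD3 hw)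
      · refine ⟨v1, fun w hw hD3 => ?_⟩
        by_contra hw0
        rw [hD, sub_eq_zero] at hD3
        exact h31 (h1.eig hF hw0 hD3 hw)
    let φ : (Fin n → F) →ₗ[F] (Fin 3 → F) := LinearMap.pi ![hermLeft 2 v3, (hermLeft 2 v1).comp (D ζ3),
      ((hermLeft 2 v2).comp (D ζ2)).comp (D ζ3)]
    obtain ⟨x, hx, hx0⟩ := (Submodule.ne_bot_iff _).1 (LinearMap.ker_ne_bot_of_finrank_lt (f := φ) (by
      rw [finrank_fin_fun, finrank_fin_fun]
      omega))
    rw [LinearMap.mem_ker] at hx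
    have hx1 : hermForm n F 2 x v3 = 0 := congrFun hx 0
    have hx2 : hermForm n F 2 (D ζ3 x) v1 = 0 := congrFun hx 1
    have hx3 : hermForm n F 2 (D ζ2 (D ζ3 x)) v2 = 0 := congrFun hx 2
    have hprod : D ζ1 (D ζ2 (D ζ3 x)) = 0 := by
      have e1 := hcub x
      rw [hr', hc1', hc2'] at e1
      rw [hD, hD, hD]
      rw [← sub_eq_zero] at e1
      rw [← e1]
      simp only [act_sub, act_smul]
      module
    have hD2 : D ζ2 (D ζ3 x) = 0 := by
      by_contra h0
      rw [hD ζ1, sub_eq_zero] at hprod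
      exact hne (h2.eig hF h0 hprod hx3)
    have hD3 : D ζ3 x = 0 := by
      by_contra h0
      rw [hD ζ2, sub_eq_zero] at hD2
      exact hne (h1.eig hF h0 hD2 hx2).symm
    exact hx0 (hv3 x hx1 hD3)
  -- the trace is constant
  obtain ⟨v0, -, hv00, hv0⟩ := exists_iso hF (⊤ : Submodule F (Fin n → F)) (by rw [hfin]; omega)
  obtain ⟨ζ0, hζ0⟩ := hsit v0 hv00 hv0
  have hs : Sesq 2 (fun x y : Fin n → F => hermForm n F 2 (δ • act a x) y) :=
    ⟨fun x x' y => by rw [act_add, smul_add, herm_add_left], fun x y y' => herm_add_right hF _ _ _,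
      fun c x y => by rw [act_smul, smul_comm, herm_smul_left], fun c x y => herm_smul_right _ _ _⟩
  obtain ⟨ρ', hρ'⟩ := sesq_scalar_const hF hs (ND_top hF) (κ := ζ0 * n - κ * (mat a).trace)
    (Or.inr (by rw [hfin]; omega)) (by
    intro v _ hv0 hv
    obtain ⟨ζ, hζ⟩ := hsit v hv0 hv
    rw [hconst _ _ _ _ hζ0 hζ]
    exact hζ.trace hF)
  have h1 : ∀ x : Fin n → F, act a x = (δ⁻¹ * ρ') • act (1 : SU n F 2) x := by
    intro x
    have e1 : δ • act a x = ρ' • x := by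
      rw [← sub_eq_zero]
      refine herm_nondeg hF fun y => ?_
      rw [herm_sub_left, herm_smul_left ρ']
      exact sub_eq_zero.2 (hρ' x trivial y trivial)
    rw [act_one, mul_smul, ← e1, smul_smul, inv_mul_cancel₀ hδ0, one_smul]
  rw [← pr_eq_of_scalar h1, map_one]

/-- **The unipotent case.** -/
theorem kill_uni (hF : Fintype.card F = 2 ^ 2) (h3 : 3 ∣ n) (hn : 9 ≤ n) {a b c : SU n F 2}
    (h : AllConj (pr n F 2 a) (pr n F 2 b) (pr n F 2 c)) {m : ℕ} (hc : c ^ 2 ^ m = 1) :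
    pr n F 2 a = 1 ∨ pr n F 2 b = 1 := by
  have main : ∀ a b c : SU n F 2, AllConj (pr n F 2 a) (pr n F 2 b) (pr n F 2 c) → c ^ 2 ^ m = 1 → PB b →
      pr n F 2 a = 1 ∨ pr n F 2 b = 1 := by
    intro a b c h hc hb
    by_cases hb1 : pr n F 2 b = 1
    · exact Or.inr hb1
    · obtain ⟨κ, δ, ρ, hκ0, hδ0, hρ0, hρ, hform⟩ := transv_of_pb hF h3 hn hb1 hb
      exact Or.inl (kill_transv hF (by omega) h hc hκ0 hδ0 hρ0 hρ hform)
  rcases pb_or hF (by omega) h hc with h1 | h1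
  · have h2 : AllConj (pr n F 2 b⁻¹) (pr n F 2 a⁻¹) (pr n F 2 c⁻¹) := by
      rw [map_inv, map_inv, map_inv]
      exact AllConj.swapped h
    rcases main b⁻¹ a⁻¹ c⁻¹ h2 (by rw [inv_pow, hc, inv_one]) h1 with h3 | h3
    · right
      rw [map_inv] at h3
      exact inv_eq_one.1 h3
    · left
      rw [map_inv] at h3
      exact inv_eq_one.1 h3
  · exact main a b c h hc h1

end Cfsg.Agent.H519.AH
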